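import Cfsg.Agent.Lib.LocalFusion.ConjFamily
import Cfsg.Agent.Lib.LocalChar.Core

/-! Chains of steps for the strong Alperin–Goldschmidt theorem. -/

set_option autoImplicit false

namespace Cfsg.Agent.Lib.StrongAG

open Cfsg Cfsg.Agent.Lib.LocalFusion Cfsg.Agent.Lib.LocalChar

variable {G : Type*} [Group G] {p : ℕ}

/-- The subgroup generated by `C(H)` and the normalizers in `N(H)` of the `p`-subgroups of
`P ∩ N(H)` properly above `H` is the whole of `N(H)`. -/
def IsGen (P H : Subgroup G) : Prop :=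
  ∀ W : Subgroup G, Subgroup.centralizer (H : Set G) ≤ W →
    (∀ T : Subgroup G, H < T → T ≤ P ⊓ Subgroup.normalizer (H : Set G) →
      Subgroup.normalizer (H : Set G) ⊓ Subgroup.normalizer (T : Set G) ≤ W) →
    Subgroup.normalizer (H : Set G) ≤ W

/-- A normal subgroup of `N(H)` above `H` whose index over `H` is divisible by `p`. -/
def IsBig (p : ℕ) (H L : Subgroup G) : Prop :=
  H ≤ L ∧ L ≤ Subgroup.normalizer (H : Set G) ∧
    Subgroup.normalizer (H : Set G) ≤ Subgroup.normalizer (L : Set G) ∧ p ∣ H.relIndex L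

/-- One step of the strong conjugation family. -/
structure Good (P : Sylow p G) (H : Subgroup G) (x : G) : Prop where
  le : H ≤ (P : Subgroup G)
  ne : H ≠ (P : Subgroup G)
  fn : ¬ p ∣ ((P : Subgroup G) ⊓ Subgroup.normalizer (H : Set G)).relIndex
    (Subgroup.normalizer (H : Set G))
  notGen : ¬ IsGen (P : Subgroup G) H
  coprime : (orderOf x).Coprime p
  mem : x ∈ Subgroup.normalizer (H : Set G)
  mem_big : ∀ L, IsBig p H L → x ∈ L

theorem nz_cj (g : G) (H : Subgroup G) :
    Subgroup.normalizer ((cj g H : Subgroup G) : Set G) = cj g (Subgroup.normalizer (H : Set G)) := by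
  ext x
  rw [mem_cj]
  constructor
  · intro hx
    have := LocalFusion.conj_mem_normalizer (g := g⁻¹) hx
    rw [inv_inv, show (cj g H).map (MulAut.conj g⁻¹).toMonoidHom = H by
      rw [map_conj_mul, inv_mul_cancel, map_conj_one]] at this
    exact this
  · intro hx
    have := LocalFusion.conj_mem_normalizer (g := g) hx
    rw [show g * (g⁻¹ * x * g) * g⁻¹ = x by group] at this
    exact this

theorem centralizer_cj (g : G) (H : Subgroup G) :
    Subgroup.centralizer ((cj g H : Subgroup G) : Set G) = cj g (Subgroup.centralizer (H : Set G)) := by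
  ext x
  rw [mem_cj]
  simp only [Subgroup.mem_centralizer_iff]
  constructor
  · intro hx h hh
    have := hx (g * h * g⁻¹) (conj_mem_cj hh)
    calc h * (g⁻¹ * x * g) = g⁻¹ * ((g * h * g⁻¹) * x) * g := by group
      _ = g⁻¹ * (x * (g * h * g⁻¹)) * g := by rw [this]
      _ = _ := by group
  · intro hx h hh
    have := hx _ (mem_cj.1 hh)
    calc h * x = g * ((g⁻¹ * h * g) * (g⁻¹ * x * g)) * g⁻¹ := by group
      _ = g * ((g⁻¹ * x * g) * (g⁻¹ * h * g)) * g⁻¹ := by rw [this]
      _ = _ := by group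

theorem cj_inv_cj (g : G) (H : Subgroup G) : cj g⁻¹ (cj g H) = H := by
  rw [cj_cj, inv_mul_cancel]; exact map_conj_one H

theorem cj_cj_inv (g : G) (H : Subgroup G) : cj g (cj g⁻¹ H) = H := by
  rw [cj_cj, mul_inv_cancel]; exact map_conj_one H

theorem IsGen.cj {P H : Subgroup G} (h : IsGen P H) (g : G) : IsGen (cj g P) (cj g H) := by
  intro W hC hT
  rw [nz_cj]
  refine (cj_mono (g := g) (h (LocalChar.cj g⁻¹ W) ?_ ?_)).trans (cj_cj_inv g W).le
  · rw [← cj_inv_cj g (Subgroup.centralizer (H : Set G))]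
    exact cj_mono ((centralizer_cj g H).symm ▸ hC)
  · intro T hlt hle
    rw [← cj_inv_cj g (Subgroup.normalizer (H : Set G) ⊓ Subgroup.normalizer (T : Set G))]
    refine cj_mono (le_trans ?_ (hT (LocalChar.cj g T) ?_ ?_))
    · rw [nz_cj, nz_cj]
      exact (Subgroup.map_inf_le _ _ _)
    · refine lt_of_le_of_ne (cj_mono hlt.le) fun e => hlt.ne ?_
      rw [← cj_inv_cj g H, e, cj_inv_cj]
    · rw [nz_cj]
      refine (cj_mono hle).trans (Subgroup.map_inf_le _ _ _)

theorem IsBig.cj {H L : Subgroup G} (h : IsBig p H L) (g : G) :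
    IsBig p (cj g H) (cj g L) := by
  refine ⟨cj_mono h.1, ?_, ?_, ?_⟩
  · rw [nz_cj]; exact cj_mono h.2.1
  · rw [nz_cj, nz_cj]; exact cj_mono h.2.2.1
  · rw [show (LocalChar.cj g H).relIndex (LocalChar.cj g L) = H.relIndex L from
      Subgroup.relIndex_map_map_of_injective _ _ (MulAut.conj g).injective]
    exact h.2.2.2

theorem Good.cj {P : Sylow p G} {H : Subgroup G} {x : G} (h : Good P H x) {y : G}
    (hy : y ∈ Subgroup.normalizer ((P : Subgroup G) : Set G)) :
    Good P (cj y H) (y * x * y⁻¹) := by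
  have hP : LocalChar.cj y (P : Subgroup G) = (P : Subgroup G) := cj_eq_of_mem_nz hy
  refine ⟨(cj_mono h.le).trans hP.le, fun e => h.ne ?_, ?_, fun e => h.notGen ?_, ?_, ?_, ?_⟩
  · have := congrArg (LocalChar.cj y⁻¹) (e.trans hP.symm)
    rwa [cj_inv_cj, cj_inv_cj] at this
  · rw [nz_cj]
    nth_rw 1 [← hP]
    rw [← Subgroup.map_inf _ _ _ (MulEquiv.injective _),
      Subgroup.relIndex_map_map_of_injective _ _ (MulAut.conj y).injective]
    exact h.fn
  · have := e.cj y⁻¹
    rwa [cj_inv_cj, cj_eq_of_mem_nz (inv_mem hy)] at this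
  · rw [orderOf_conj']; exact h.coprime
  · rw [nz_cj]; exact conj_mem_cj h.mem
  · intro L hL
    have hL' := hL.cj y⁻¹
    rw [cj_inv_cj] at hL'
    have := conj_mem_cj (g := y) (h.mem_big _ hL')
    rwa [cj_cj_inv] at this

/-- A chain of good steps starting at the set `A`. -/
inductive SChain (P : Sylow p G) : Set G → G → Prop
  | one (A : Set G) : SChain P A 1
  | step {A : Set G} {H : Subgroup G} {x g : G} (hG : Good P H x) (hA : A ⊆ H)
      (h : SChain P (imgR x A) g) : SChain P A (x * g)

namespace SChain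

variable {P : Sylow p G}

theorem single {A : Set G} {H : Subgroup G} {x : G} (hG : Good P H x) (hA : A ⊆ H) :
    SChain P A x := by simpa using SChain.step hG hA (.one _)

theorem mono {A B : Set G} {g : G} (h : SChain P B g) (hAB : A ⊆ B) : SChain P A g := by
  induction h generalizing A with
  | one => exact .one _
  | step hG hA h ih => exact .step hG (hAB.trans hA) (ih (imgR_mono _ hAB))

theorem trans {A : Set G} {g k : G} (h : SChain P A g) (h' : SChain P (imgR g A) k) :
    SChain P A (g * k) := by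
  induction h with
  | one => rw [imgR_one] at h'; simpa using h'
  | @step A H x g hG hA h ih =>
    rw [mul_assoc]
    exact .step hG hA (ih (by rwa [← imgR_mul]))

theorem conj {A : Set G} {g y : G} (h : SChain P A g)
    (hy : y ∈ Subgroup.normalizer ((P : Subgroup G) : Set G)) :
    SChain P (imgR y⁻¹ A) (y * g * y⁻¹) := by
  induction h with
  | one => simpa using SChain.one _
  | @step A H x g hG hA h ih =>
    rw [show y * (x * g) * y⁻¹ = (y * x * y⁻¹) * (y * g * y⁻¹) by group]
    refine .step (hG.cj hy) ?_ ?_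
    · rintro _ ⟨a, ha, rfl⟩
      simpa [mem_cj, mul_assoc] using hA ha
    · rw [← imgR_mul, show y⁻¹ * (y * x * y⁻¹) = x * y⁻¹ by group, imgR_mul]
      exact ih

theorem toData {A : Set G} {g : G} (h : SChain P A g) :
    ∃ (n : ℕ) (H : Fin n → Subgroup G) (x : Fin n → G), (List.ofFn x).prod = g ∧
      (∀ i, Good P (H i) (x i)) ∧
      ∀ i : Fin n, imgR ((List.ofFn x).take i.val).prod A ⊆ (H i : Set G) := by
  induction h with
  | one => exact ⟨0, Fin.elim0, Fin.elim0, by simp, fun i => i.elim0, fun i => i.elim0⟩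
  | @step A H x g hG hA h ih =>
    obtain ⟨n, Hs, xs, hprod, hGs, hsub⟩ := ih
    refine ⟨n + 1, Fin.cons H Hs, Fin.cons x xs, by simp [List.ofFn_succ, hprod], fun i => ?_,
      fun i => ?_⟩
    · induction i using Fin.cases with
      | zero => simpa using hG
      | succ i => simpa using hGs i
    · induction i using Fin.cases with
      | zero => simpa [imgR_one] using hA
      | succ i => simpa [List.ofFn_succ, imgR_mul] using hsub i

end SChain

/-- `g` decomposes on `A` as `c x₁ ⋯ xₙ y`. -/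
def Decomp (P : Sylow p G) (A : Set G) (g : G) : Prop :=
  ∃ c x y : G, c ∈ Subgroup.centralizer A ∧ SChain P A x ∧
    y ∈ Subgroup.normalizer ((P : Subgroup G) : Set G) ∧ g = c * x * y

theorem imgR_of_mem_centralizer {A : Set G} {c : G} (hc : c ∈ Subgroup.centralizer A) :
    imgR c A = A := by
  rw [imgR_eq_imgL]
  refine imgL_agree fun a ha => ?_
  rw [mul_assoc, inv_inv, Subgroup.mem_centralizer_iff.1 hc a ha, inv_mul_cancel_left]

namespace Decomp

variable {P : Sylow p G}

theorem mono {A B : Set G} {g : G} (h : Decomp P B g) (hAB : A ⊆ B) : Decomp P A g := by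
  obtain ⟨c, x, y, hc, hx, hy, rfl⟩ := h
  exact ⟨c, x, y, Subgroup.centralizer_le hAB hc, hx.mono hAB, hy, rfl⟩

theorem of_centralizer {A : Set G} {c : G} (hc : c ∈ Subgroup.centralizer A) : Decomp P A c :=
  ⟨c, 1, 1, hc, .one _, one_mem _, by simp⟩

theorem of_normalizer (A : Set G) {y : G}
    (hy : y ∈ Subgroup.normalizer ((P : Subgroup G) : Set G)) : Decomp P A y :=
  ⟨1, 1, y, one_mem _, .one _, hy, by simp⟩

theorem of_good {A : Set G} {H : Subgroup G} {x : G} (hG : Good P H x) (hA : A ⊆ H) :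
    Decomp P A x :=
  ⟨1, x, 1, one_mem _, SChain.single hG hA, one_mem _, by simp⟩

theorem mul {A : Set G} {g k : G} (h : Decomp P A g) (h' : Decomp P (imgR g A) k) :
    Decomp P A (g * k) := by
  obtain ⟨c, x, y, hc, hx, hy, rfl⟩ := h
  obtain ⟨c', x', y', hc', hx', hy', rfl⟩ := h'
  refine ⟨(c * x * y) * c' * (c * x * y)⁻¹ * c, x * (y * x' * y⁻¹), y * y', ?_, ?_,
    mul_mem hy hy', by group⟩
  · refine mul_mem (Subgroup.mem_centralizer_iff.2 fun a ha => ?_) hc
    have := Subgroup.mem_centralizer_iff.1 hc' _ ⟨a, ha, rfl⟩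
    generalize c * x * y = u at this ⊢
    calc a * (u * c' * u⁻¹) = u * ((u⁻¹ * a * u) * c') * u⁻¹ := by group
      _ = u * (c' * (u⁻¹ * a * u)) * u⁻¹ := by rw [this]
      _ = _ := by group
  · refine hx.trans ?_
    have hB : imgR (c * x * y) A = imgR y (imgR x A) := by
      rw [imgR_mul, imgR_mul, imgR_of_mem_centralizer hc]
    rw [hB] at hx'
    have := hx'.conj hy
    rwa [← imgR_mul, mul_inv_cancel, imgR_one] at this

end Decomp

end Cfsg.Agent.Lib.StrongAG
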