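import Cfsg.Agent.Lib.StrongAG.Chain
import Cfsg.Agent.Lib.Coprime.Abelian
import Cfsg.Agent.Lib.Hall.Basic
import Cfsg.Agent.S3056

/-! Local analysis of a fully normalized subgroup for the strong Alperin–Goldschmidt theorem. -/

set_option autoImplicit false

namespace Cfsg.Agent.Lib.StrongAG

open Cfsg Cfsg.Agent.Lib.LocalFusion Cfsg.Agent.Lib.LocalChar

variable {G : Type*} [Group G] [Finite G] {p : ℕ} [hp : Fact p.Prime]

/-- A `p`-element of a normal subgroup `K` of `N` is conjugate into `S ⊓ K`. -/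
theorem mem_of_pElement {U N K S : Subgroup G} (hS : IsSylowIn p S N) (hU : N ≤ Subgroup.normalizer (U : Set G))
    (hKN : K ≤ N) (hn : N ≤ Subgroup.normalizer (K : Set G)) (hSK : S ⊓ K ≤ U) {a : G} (ha : a ∈ K)
    (hap : IsPGroup p (Subgroup.zpowers a)) : a ∈ U := by
  obtain ⟨x, hx, hle⟩ := (hS.inf hKN hn).conj_le hap (Subgroup.zpowers_le.2 ha)
  have h := conj_mem_of_nz (hU (N.inv_mem (hKN hx))) (hSK (hle (conj_mem_cj (Subgroup.mem_zpowers a))))
  simpa [mul_assoc] using h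

variable {P : Sylow p G} {U : Subgroup G}

/-- Fixed data: `U < P`, `U` fully normalized. -/
structure Setup (P : Sylow p G) (U : Subgroup G) : Prop where
  le : U ≤ (P : Subgroup G)
  ne : U ≠ (P : Subgroup G)
  fn : ¬ p ∣ ((P : Subgroup G) ⊓ Subgroup.normalizer (U : Set G)).relIndex
    (Subgroup.normalizer (U : Set G))

namespace Setup

variable (h : Setup P U)
include h

theorem sylow : IsSylowIn p ((P : Subgroup G) ⊓ Subgroup.normalizer (U : Set G))
    (Subgroup.normalizer (U : Set G)) :=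
  ⟨inf_le_right, P.2.to_le inf_le_left, h.fn⟩

theorem lt_inf : U < (P : Subgroup G) ⊓ Subgroup.normalizer (U : Set G) :=
  lt_inf_normalizer P.2 (lt_of_le_of_ne h.le h.ne)

theorem sylowInf {K : Subgroup G} (hKN : K ≤ Subgroup.normalizer (U : Set G))
    (hn : Subgroup.normalizer (U : Set G) ≤ Subgroup.normalizer (K : Set G)) :
    IsSylowIn p ((P : Subgroup G) ⊓ K) K := by
  have := h.sylow.inf hKN hn
  rwa [inf_assoc, inf_eq_right.2 hKN] at this

variable {W : Subgroup G}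
  (hT : ∀ T : Subgroup G, U < T → T ≤ (P : Subgroup G) ⊓ Subgroup.normalizer (U : Set G) →
      Subgroup.normalizer (U : Set G) ⊓ Subgroup.normalizer (T : Set G) ≤ W)
include hT

theorem inf_le_W : (P : Subgroup G) ⊓ Subgroup.normalizer (U : Set G) ≤ W := fun x hx =>
  hT _ h.lt_inf le_rfl ⟨hx.2, Subgroup.le_normalizer hx⟩

theorem le_W_of_normal {K : Subgroup G} (hKN : K ≤ Subgroup.normalizer (U : Set G))
    (hn : Subgroup.normalizer (U : Set G) ≤ Subgroup.normalizer (K : Set G))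
    (hlt : U < (P : Subgroup G) ⊓ K) (hKW : K ≤ W) : Subgroup.normalizer (U : Set G) ≤ W := by
  intro g hg
  obtain ⟨k, hk, m, hm, rfl⟩ := (h.sylowInf hKN hn).frattini hKN hn hg
  exact mul_mem (hKW hk) (hT _ hlt (le_inf inf_le_left (inf_le_right.trans hKN)) hm)

omit hT in
theorem centralizer_le_normal : Subgroup.normalizer (U : Set G) ≤
    Subgroup.normalizer (Subgroup.centralizer (U : Set G) : Set G) :=
  le_nz_centralizer le_rfl

omit hT in
theorem isGen_of_centralizer (hne : ¬ (P : Subgroup G) ⊓ Subgroup.centralizer (U : Set G) ≤ U) :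
    IsGen (P : Subgroup G) U := by
  intro W hC hT
  refine h.le_W_of_normal hT (K := U ⊔ Subgroup.centralizer (U : Set G))
    (sup_le Subgroup.le_normalizer (Subgroup.centralizer_le_normalizer _))
    (le_nz_sup le_rfl h.centralizer_le_normal) ?_
    (sup_le (h.lt_inf.le.trans (h.inf_le_W hT)) hC)
  refine lt_of_le_of_ne (le_inf h.le le_sup_left) fun e => hne ?_
  exact (inf_le_inf_left _ le_sup_right).trans e.ge

omit hT in
theorem centralizer_inf_le (hng : ¬ IsGen (P : Subgroup G) U) :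
    (P : Subgroup G) ⊓ Subgroup.centralizer (U : Set G) ≤ U :=
  by_contra fun hne => hng (h.isGen_of_centralizer hne)

end Setup

section core

variable (h : Setup P U) (hng : ¬ IsGen (P : Subgroup G) U)
include h hng

theorem Setup.pPrimePCore_eq :
    (pPrimePCore p ↥(Subgroup.normalizer (U : Set G))).map (Subgroup.normalizer (U : Set G)).subtype =
      U ⊔ Subgroup.centralizer (U : Set G) := by
  set N := Subgroup.normalizer (U : Set G) with hN
  set C := Subgroup.centralizer (U : Set G) with hCdef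
  have hCN : C ≤ N := Subgroup.centralizer_le_normalizer _
  have hUN : U ≤ N := Subgroup.le_normalizer
  haveI := Cfsg.pPrimeCore_normal p ↥N
  haveI : (pPrimePCore p ↥N).Normal :=
    Subgroup.Normal.comap Lib.LocalChar.pCore_normal _
  set O := (pPrimeCore p ↥N).map N.subtype with hOdef
  set M := (pPrimePCore p ↥N).map N.subtype with hMdef
  have hMN : M ≤ N := Subgroup.map_subtype_le _
  have hMn : N ≤ Subgroup.normalizer (M : Set G) := by
    refine le_nz_iff.2 ?_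
    rintro k hk _ ⟨x, hx, rfl⟩
    exact ⟨_, ‹(pPrimePCore p ↥N).Normal›.conj_mem x hx ⟨k, hk⟩, rfl⟩
  have hOC : O ≤ C := by
    rintro _ ⟨o, ho, rfl⟩
    refine Subgroup.mem_centralizer_iff.2 fun u hu => ?_
    have h1 : (⟨u, hUN hu⟩ : N) * o * (⟨u, hUN hu⟩ : N)⁻¹ * o⁻¹ ∈ pPrimeCore p ↥N :=
      mul_mem (‹(pPrimeCore p ↥N).Normal›.conj_mem o ho _) (inv_mem ho)
    have h2 : u * ((o : G) * u⁻¹ * (o : G)⁻¹) ∈ U :=
      U.mul_mem hu (conj_mem_of_nz o.2 (U.inv_mem hu))
    set z : N := (⟨u, hUN hu⟩ : N) * o * (⟨u, hUN hu⟩ : N)⁻¹ * o⁻¹ with hz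
    have hzU : z ∈ U.subgroupOf N := by
      rw [Subgroup.mem_subgroupOf, hz]; simpa [mul_assoc] using h2
    have hz1 : z = 1 := Subgroup.mem_bot.1 (Subgroup.inf_eq_bot_of_coprime (H := U.subgroupOf N)
      (K := pPrimeCore p ↥N) (by
        obtain ⟨n, hn⟩ := IsPGroup.iff_card.1
          (isPGroup_subgroupOf (H := N) (P.2.to_le h.le : IsPGroup p U))
        rw [hn]
        exact ((Lib.Hall.coprime_card_pPrimeCore p).symm).pow_left n) ▸ ⟨hzU, h1⟩)
    have h4 : u * (o : G) * u⁻¹ * (o : G)⁻¹ = 1 := by simpa [hz] using congrArg Subtype.val hz1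
    rw [mul_inv_eq_one, mul_inv_eq_iff_eq_mul] at h4
    exact h4
  have hres : resOf p M ≤ O := by
    rw [resOf_le_iff]
    rintro _ ⟨x, hx, rfl⟩ hox
    refine ⟨x, ?_, rfl⟩
    rw [SetLike.mem_coe, ← QuotientGroup.eq_one_iff]
    obtain ⟨k, hk⟩ := (Lib.LocalChar.pCore_isPGroup (p := p) (G := ↥N ⧸ pPrimeCore p ↥N))
      ⟨QuotientGroup.mk' _ x, hx⟩
    have hk' : (QuotientGroup.mk' (pPrimeCore p ↥N) x) ^ p ^ k = 1 := congrArg Subtype.val hk
    refine eq_one_of_pow_coprime (n := orderOf x) ?_ ⟨k, hk'⟩ ?_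
    · rw [← Subgroup.orderOf_coe]; exact hox
    · rw [← QuotientGroup.mk_pow, pow_orderOf_eq_one]; rfl
  apply le_antisymm
  · have hPM := h.sylowInf hMN hMn
    have hle : (P : Subgroup G) ⊓ M ≤ U := by
      by_contra hnle
      refine hng fun W hC hT => h.le_W_of_normal hT hMN hMn (lt_of_le_of_ne (le_inf h.le ?_) ?_) ?_
      · intro u hu
        refine ⟨⟨u, hUN hu⟩, ?_, rfl⟩
        refine Lib.LocalChar.le_pCore ((Subgroup.normal_in_normalizer (H := U)).map _
          (QuotientGroup.mk'_surjective _)) ((isPGroup_subgroupOf (P.2.to_le h.le)).map _)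
          ⟨⟨u, hUN hu⟩, hu, rfl⟩
      · intro e; exact hnle e.ge
      · rw [← hPM.resOf_sup]
        exact sup_le (hres.trans (hOC.trans hC))
          ((inf_le_inf_left _ hMN).trans (h.inf_le_W hT))
    rw [← hPM.resOf_sup]
    exact sup_le ((hres.trans hOC).trans le_sup_right) (hle.trans le_sup_left)
  · have hUM : U ≤ M := fun u hu => ⟨⟨u, hUN hu⟩, Lib.LocalChar.le_pCore
      ((Subgroup.normal_in_normalizer (H := U)).map _
        (QuotientGroup.mk'_surjective _)) ((isPGroup_subgroupOf (P.2.to_le h.le)).map _)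
          ⟨⟨u, hUN hu⟩, hu, rfl⟩, rfl⟩
    refine sup_le hUM ?_
    have hcent : ∀ a ∈ C, IsPGroup p (Subgroup.zpowers a) → a ∈ U := fun a ha hap =>
      mem_of_pElement h.sylow le_rfl hCN h.centralizer_le_normal
        ((inf_le_inf_right _ inf_le_left).trans (h.centralizer_inf_le hng)) ha hap
    have hR : resOf p C ≤ O := by
      let S : Sylow p ↥C := Classical.arbitrary _
      have hS : Subgroup.normalizer ((S : Subgroup ↥C) : Set ↥C) ≤
          Subgroup.centralizer ((S : Subgroup ↥C) : Set ↥C) := by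
        refine fun c _ => Subgroup.mem_centralizer_iff.2 fun s hs => Subtype.ext ?_
        have hsU : (s : G) ∈ U := hcent _ s.2 (by
          have := ((S.2.to_le (Subgroup.zpowers_le.2 hs))).map C.subtype
          rwa [MonoidHom.map_zpowers] at this)
        exact Subgroup.mem_centralizer_iff.1 c.2 _ hsU
      set f := MonoidHom.transferSylow S hS
      have hle : resOf p C ≤ f.ker.map C.subtype := by
        rw [resOf_le_iff]
        intro x hx hox
        refine ⟨⟨x, hx⟩, ?_, rfl⟩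
        obtain ⟨k, hk⟩ := S.2 (f ⟨x, hx⟩)
        refine eq_one_of_pow_coprime hox ⟨k, hk⟩ ?_
        rw [← map_pow]
        convert map_one f
        exact Subtype.ext (pow_orderOf_eq_one x)
      have hcop : (Nat.card ↥(resOf p C)).Coprime p := by
        refine Nat.Coprime.coprime_dvd_left (Subgroup.card_dvd_of_le hle) ?_
        rw [Subgroup.card_map_of_injective Subtype.val_injective]
        exact coprime_of_not_dvd (MonoidHom.not_dvd_card_ker_transferSylow S hS)
      have hnres : N ≤ Subgroup.normalizer (resOf p C : Set G) :=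
        h.centralizer_le_normal.trans (nz_le_nz_resOf C)
      haveI := normal_subgroupOf hnres
      intro x hx
      refine ⟨⟨x, hCN (resOf_le C hx)⟩, Lib.Hall.le_pPrimeCore (N := (resOf p C).subgroupOf N) ?_ hx,
        rfl⟩
      rw [Nat.card_congr (Subgroup.subgroupOfEquivOfLe ((resOf_le C).trans hCN)).toEquiv]
      exact hcop
    have hOM : O ≤ M := Subgroup.map_mono fun x hx => by
      unfold pPrimePCore
      rw [Subgroup.mem_comap, QuotientGroup.mk'_apply, (QuotientGroup.eq_one_iff x).2 hx]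
      exact one_mem _
    intro c hc
    obtain ⟨a, b, ha, hb, rfl, ⟨k, hk⟩, hbo⟩ := exists_ppart (p := p) c
    have hz := Subgroup.zpowers_le.2 hc
    exact mul_mem (hUM (hcent a (hz ha) (IsPGroup.of_card (n := k) (by rw [Nat.card_zpowers, hk]))))
      (hOM (hR (mem_resOf (hz hb) hbo)))

end core

theorem Setup.not_connected (h : Setup P U) (hng : ¬ IsGen (P : Subgroup G) U) :
    ¬ IsSylowChainConnected p
      (↥(Subgroup.normalizer (U : Set G)) ⧸ U.subgroupOf (Subgroup.normalizer (U : Set G))) := by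
  simp only [IsGen, not_forall] at hng
  obtain ⟨W, hC, hT, hnW⟩ := hng
  set N := Subgroup.normalizer (U : Set G) with hN
  set S := (P : Subgroup G) ⊓ N with hSdef
  have hUS : U < S := h.lt_inf
  have hSW : S ≤ W := h.inf_le_W hT
  have hUN : U ≤ N := Subgroup.le_normalizer
  -- every element of `N` moving a subgroup strictly above `U` inside `S` lies in `W`
  have ctrl : ∀ T : Subgroup G, U < T → T ≤ S → ∀ n ∈ N, imgR n (T : Set G) ⊆ S → n ∈ W := by
    intro T hUT hTS n hn hsub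
    let 𝓕 : Set (Subgroup ↥N) := {V | V ≤ (h.sylow.sylow : Subgroup ↥N) ∧
      ¬ p ∣ ((h.sylow.sylow : Subgroup ↥N) ⊓ Subgroup.normalizer (V : Set ↥N)).relIndex
        (Subgroup.normalizer (V : Set ↥N))}
    have hch := alperin (𝓕 := 𝓕) h.sylow.sylow (isCovering_fullyNormalized _) (T.subgroupOf N) ⟨n, hn⟩
      (fun x hx => hTS hx) (by rintro _ ⟨a, ha, rfl⟩; exact hsub ⟨a, ha, rfl⟩)
    have key : ∀ (B : Set ↥N) (c : ↥N), RChain 𝓕 B c → (∀ u : ↥N, (u : G) ∈ U → u ∈ B) →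
        (∃ b ∈ B, (b : G) ∉ U) → (c : G) ∈ W := by
      intro B c hB
      induction hB with
      | one => intros; exact one_mem W
      | @step B V x c hV hx hBV hr ih =>
        intro hUB hbB
        obtain ⟨b, hb, hbU⟩ := hbB
        refine mul_mem (hT (V.map N.subtype) ?_ ?_ ⟨x.2, ?_⟩) (ih ?_ ?_)
        · refine lt_of_le_of_ne (fun u hu => ⟨⟨u, hUN hu⟩, hBV (hUB _ hu), rfl⟩) fun e => hbU ?_
          rw [e]; exact ⟨b, hBV hb, rfl⟩
        · rintro _ ⟨v, hv, rfl⟩; exact hV.1 hv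
        · refine mem_nz_of_cj_le ?_
          rintro _ ⟨_, ⟨v, hv, rfl⟩, rfl⟩
          exact ⟨x * v * x⁻¹, (Subgroup.mem_normalizer_iff.1 hx v).1 hv, rfl⟩
        · intro u hu
          refine ⟨x * u * x⁻¹, hUB _ (conj_mem_of_nz (g := (x : G)) x.2 hu), ?_⟩
          simp [mul_assoc]
        · refine ⟨x⁻¹ * b * x, ⟨b, hb, rfl⟩, fun hm => hbU ?_⟩
          have := conj_mem_of_nz (g := (x : G)) x.2 hm
          simpa [mul_assoc] using this
    refine key _ _ hch (fun u hu => hUT.le hu) ?_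
    obtain ⟨t, ht, htU⟩ := SetLike.exists_of_lt hUT
    exact ⟨⟨t, (hTS ht).2⟩, ht, htU⟩
  set f := QuotientGroup.mk' (U.subgroupOf N) with hf
  refine (Cfsg.Agent.S3056.result p).2 ⟨(W.subgroupOf N).map f, fun e => hnW ?_, ?_, ?_⟩
  · intro x hx
    obtain ⟨w, hw, hwe⟩ := (e ▸ Subgroup.mem_top (f ⟨x, hx⟩) : f ⟨x, hx⟩ ∈ (W.subgroupOf N).map f)
    have h1 : w⁻¹ * ⟨x, hx⟩ ∈ U.subgroupOf N := QuotientGroup.eq.1 hwe
    have h2 : (w : G) * ((w⁻¹ * (⟨x, hx⟩ : N) : N) : G) ∈ W :=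
      mul_mem (Subgroup.mem_subgroupOf.1 hw) (hSW (hUS.le (Subgroup.mem_subgroupOf.1 h1)))
    simpa using h2
  · obtain ⟨s, hs, hsU⟩ := SetLike.exists_of_lt hUS
    have h1 : f ⟨s, hs.2⟩ ≠ 1 := fun e => hsU ((QuotientGroup.eq_one_iff (⟨s, hs.2⟩ : N)).1 e)
    refine Lib.LocalP2.dvd_card_of_pGroup_le (D := (S.subgroupOf N).map f)
      ((isPGroup_subgroupOf h.sylow.2.1).map f) (fun eb => h1 ?_)
      (Subgroup.map_mono fun x hx => hSW hx)
    exact Subgroup.mem_bot.1 (eb ▸ Subgroup.mem_map_of_mem f (show (⟨s, hs.2⟩ : N) ∈ S.subgroupOf N from hs))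
  · intro g hg hd
    obtain ⟨g, rfl⟩ := QuotientGroup.mk'_surjective _ g
    obtain ⟨d, hdo⟩ := exists_prime_orderOf_dvd_card' p hd
    set D := ((Subgroup.zpowers (d : ↥N ⧸ U.subgroupOf N)).comap f).map N.subtype with hDdef
    have hDp : IsPGroup p D := by
      refine ((IsPGroup.of_card (n := 1) ?_).comap_of_ker_isPGroup f ?_).map _
      · rw [Nat.card_zpowers, Subgroup.orderOf_coe, hdo, pow_one]
      · rw [hf, QuotientGroup.ker_mk']; exact isPGroup_subgroupOf (P.2.to_le h.le)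
    have hUD : U < D := by
      refine lt_of_le_of_ne (fun u hu => ⟨⟨u, hUN hu⟩, ?_, rfl⟩) fun e => ?_
      · rw [SetLike.mem_coe, Subgroup.mem_comap,
          show f ⟨u, hUN hu⟩ = 1 from (QuotientGroup.eq_one_iff (⟨u, hUN hu⟩ : N)).2 hu]
        exact one_mem _
      · obtain ⟨e', he'⟩ := QuotientGroup.mk'_surjective (U.subgroupOf N) (d : ↥N ⧸ U.subgroupOf N)
        have h1 : (e' : G) ∈ U := e ▸ (⟨e', by
          rw [SetLike.mem_coe, Subgroup.mem_comap, show f e' = _ from he']; exact Subgroup.mem_zpowers _, rfl⟩ : (e' : G) ∈ D)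
        rw [QuotientGroup.mk'_apply, (QuotientGroup.eq_one_iff e').2 h1] at he'
        rw [← Subgroup.orderOf_coe, ← he', orderOf_one] at hdo
        exact hp.out.one_lt.ne hdo
    have hpre : ∀ y : N, f y ∈ (W.subgroupOf N).map f → (y : G) ∈ W := by
      rintro y ⟨w, hw, hwe⟩
      have h1 : w⁻¹ * y ∈ U.subgroupOf N := QuotientGroup.eq.1 hwe
      have h2 : (w : G) * ((w⁻¹ * (y : N) : N) : G) ∈ W :=
        mul_mem (Subgroup.mem_subgroupOf.1 hw) (hSW (hUS.le (Subgroup.mem_subgroupOf.1 h1)))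
      simpa using h2
    have hD1 : D ≤ W := by
      rintro _ ⟨y, hy, rfl⟩
      exact hpre y (Subgroup.zpowers_le.2 d.2.1 hy)
    have hD2 : cj (g : G)⁻¹ D ≤ W := by
      rintro _ ⟨_, ⟨y, hy, rfl⟩, rfl⟩
      have h1 := mem_cj.1 (Subgroup.zpowers_le.2 d.2.2 hy)
      rw [← map_inv, ← map_mul, ← map_mul] at h1
      simpa [mul_assoc] using hpre _ h1
    obtain ⟨Q, hQ, hSQ⟩ := exists_isSylowIn_ge (H := W ⊓ N) h.sylow.2.1 (le_inf hSW inf_le_right)
    have hQS : Q = S := h.sylow.eq_of_le hQ.2.1 (hQ.1.trans inf_le_right) hSQ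
    subst hQS
    have hgN : cj (g : G)⁻¹ D ≤ N := by
      rintro _ ⟨_, ⟨y, hy, rfl⟩, rfl⟩
      exact (g⁻¹ * y * g⁻¹⁻¹).2
    obtain ⟨a, ha, hale⟩ := hQ.conj_le hDp (le_inf hD1 (Subgroup.map_subtype_le _))
    obtain ⟨b, hb, hble⟩ := hQ.conj_le (isPGroup_cj hDp) (le_inf hD2 hgN)
    have hn := ctrl (cj a D) (lt_of_le_of_ne (by
        rw [← cj_eq_of_mem_nz (show a ∈ Subgroup.normalizer (U : Set G) from ha.2)]
        exact cj_mono hUD.le) fun e => hUD.ne (by
        have := congrArg (cj a⁻¹) e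
        rwa [cj_inv_cj, cj_eq_of_mem_nz (inv_mem (show a ∈ Subgroup.normalizer (U : Set G) from ha.2))] at this))
      hale (a * g * b⁻¹) (mul_mem (mul_mem ha.2 g.2) (inv_mem hb.2)) (by
        rintro _ ⟨x, hx, rfl⟩
        have h1 := mem_cj.1 hx
        have h2 := hble (conj_mem_cj (g := b) (conj_mem_cj (g := (g : G)⁻¹) h1))
        simpa [mul_assoc] using h2)
    refine hg ⟨g, ?_, rfl⟩
    show (g : G) ∈ W
    have := mul_mem (mul_mem (inv_mem (show a ∈ W from ha.1)) hn) (show b ∈ W from hb.1)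
    simpa [mul_assoc] using this

theorem Setup.isBig_normalizer (h : Setup P U) : IsBig p U (Subgroup.normalizer (U : Set G)) := by
  refine ⟨Subgroup.le_normalizer, le_rfl, Subgroup.le_normalizer, ?_⟩
  have hlt := h.lt_inf
  obtain ⟨n, hn⟩ := h.sylow.2.1.index
    (U.subgroupOf ((P : Subgroup G) ⊓ Subgroup.normalizer (U : Set G)))
  rcases n with _ | n
  · rw [pow_zero] at hn
    exact absurd (Subgroup.relIndex_eq_one.1 hn) hlt.not_ge
  · exact (dvd_pow_self p (Nat.succ_ne_zero n)).trans (hn ▸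
      ⟨_, (Subgroup.relIndex_mul_relIndex U _ _ hlt.le inf_le_right).symm⟩)

theorem Setup.exists_least (h : Setup P U) (hng : ¬ IsGen (P : Subgroup G) U) :
    ∃ L, IsBig p U L ∧ ∀ L', IsBig p U L' → L ≤ L' := by
  set N := Subgroup.normalizer (U : Set G) with hN
  suffices hinf : ∀ L₁ L₂, IsBig p U L₁ → IsBig p U L₂ → IsBig p U (L₁ ⊓ L₂) by
    obtain ⟨L, hL, hmin⟩ := Set.exists_min_image {L | IsBig p U L} (fun L => Nat.card ↥L)
      (Set.toFinite _) ⟨_, h.isBig_normalizer⟩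
    exact ⟨L, hL, fun L' hL' => inf_eq_left.1
      (Subgroup.eq_of_le_of_card_ge inf_le_left (hmin _ (hinf _ _ hL hL')))⟩
  intro L₁ L₂ h₁ h₂
  refine ⟨le_inf h₁.1 h₂.1, inf_le_left.trans h₁.2.1, le_nz_inf h₁.2.2.1 h₂.2.2.1,
    by_contra fun hI => hng fun W hC hT => ?_⟩
  set I := L₁ ⊓ L₂ with hIdef
  have hIN : I ≤ N := inf_le_left.trans h₁.2.1
  have hIn : N ≤ Subgroup.normalizer (I : Set G) := le_nz_inf h₁.2.2.1 h₂.2.2.1
  have hUN : U ≤ N := Subgroup.le_normalizer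
  have hTne : ∀ L, IsBig p U L → U < (P : Subgroup G) ⊓ L := fun L hL =>
    lt_of_le_of_ne (le_inf h.le hL.1) fun e => by
      have := (h.sylowInf hL.2.1 hL.2.2.1).2.2
      rw [← e] at this
      exact this hL.2.2.2
  have hPI : (P : Subgroup G) ⊓ I ≤ U := by
    rw [← Subgroup.relIndex_eq_one]
    obtain ⟨n, hn⟩ := (P.2.to_le inf_le_left : IsPGroup p ↥((P : Subgroup G) ⊓ I)).index
      (U.subgroupOf ((P : Subgroup G) ⊓ I))
    have h1 : U.relIndex ((P : Subgroup G) ⊓ I) ∣ U.relIndex I :=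
      ⟨_, (Subgroup.relIndex_mul_relIndex U _ _ (le_inf h.le (le_inf h₁.1 h₂.1)) inf_le_right).symm⟩
    exact Nat.eq_one_of_dvd_coprimes ((coprime_of_not_dvd hI).pow_right n) h1 (by rw [← hn]; rfl)
  set f := QuotientGroup.mk' (U.subgroupOf N) with hf
  set T₁ := (P : Subgroup G) ⊓ L₁ with hT₁def
  set T₂ := (P : Subgroup G) ⊓ L₂ with hT₂def
  have hT₁S : T₁ ≤ (P : Subgroup G) ⊓ N := inf_le_inf_left _ h₁.2.1
  have hT₂S : T₂ ≤ (P : Subgroup G) ⊓ N := inf_le_inf_left _ h₂.2.1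
  -- the `p'`-part of `I` lies in `W`
  have hIW : I ≤ W := by
    set Ib := (I.subgroupOf N).map f with hIb
    have hcard : (Nat.card ↥Ib).Coprime p := by
      rw [hIb, ← Subgroup.relIndex_ker, hf, QuotientGroup.ker_mk',
        Subgroup.relIndex_subgroupOf hIN]
      exact coprime_of_not_dvd hI
    have hex : ∀ L, IsBig p U L → ∃ t : N, (t : G) ∈ (P : Subgroup G) ⊓ L ∧ orderOf (f t) = p := by
      intro L hL
      obtain ⟨s, hs, hsU⟩ := SetLike.exists_of_lt (hTne L hL)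
      have hTp : IsPGroup p ↥((((P : Subgroup G) ⊓ L).subgroupOf N).map f) :=
        (isPGroup_subgroupOf (P.2.to_le inf_le_left)).map f
      have hdvd := Lib.LocalP2.dvd_card_of_pGroup_le hTp (fun e => hsU ?_) le_rfl
      · obtain ⟨⟨_, t, ht, rfl⟩, hto⟩ := exists_prime_orderOf_dvd_card' p hdvd
        exact ⟨t, ht, by rw [← Subgroup.orderOf_coe] at hto; exact hto⟩
      · exact (QuotientGroup.eq_one_iff (⟨s, hL.2.1 hs.2⟩ : N)).1 (Subgroup.mem_bot.1 (e ▸ Subgroup.mem_map_of_mem f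
          (show (⟨s, hL.2.1 hs.2⟩ : N) ∈ ((P : Subgroup G) ⊓ L).subgroupOf N from hs)))
    obtain ⟨t₁, ht₁, ho₁⟩ := hex L₁ h₁
    obtain ⟨t₂, ht₂, ho₂⟩ := hex L₂ h₂
    have hcomm : f t₁ * f t₂ = f t₂ * f t₁ := by
      rw [← mul_inv_eq_one, ← map_mul, ← map_mul, ← map_inv, ← map_mul]
      refine (QuotientGroup.eq_one_iff _).2 (Subgroup.mem_subgroupOf.2 (hPI (Subgroup.mem_inf.2 ⟨?_, Subgroup.mem_inf.2 ⟨?_, ?_⟩⟩)))
      · exact mul_mem (mul_mem ht₁.1 ht₂.1) (inv_mem (mul_mem (show (t₂ : G) ∈ (P : Subgroup G) from ht₂.1) ht₁.1))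
      · have := mul_mem ht₁.2 (conj_mem_of_nz (h₁.2.2.1 (h₂.2.1 ht₂.2)) (inv_mem ht₁.2))
        simpa [mul_assoc] using this
      · have := mul_mem (conj_mem_of_nz (h₂.2.2.1 (h₁.2.1 ht₁.2)) ht₂.2) (inv_mem ht₂.2)
        simpa [mul_assoc] using this
    set E := Subgroup.closure ({f t₁, f t₂} : Set (↥N ⧸ U.subgroupOf N)) with hE
    haveI : IsMulCommutative ↥E := Subgroup.isMulCommutative_closure (by
      rintro x (rfl | rfl) y (rfl | rfl) <;> first | rfl | exact hcomm | exact hcomm.symm)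
    have hexp : ∀ x ∈ E, x ^ p = 1 := by
      intro x hx
      induction hx using Subgroup.closure_induction with
      | mem y hy =>
        rcases hy with rfl | rfl
        · exact ho₁ ▸ pow_orderOf_eq_one _
        · exact ho₂ ▸ pow_orderOf_eq_one _
      | one => exact one_pow _
      | mul a b ha hb iha ihb =>
        have hab : Commute a b := setLike_mul_comm (s := E) ha hb
        rw [hab.mul_pow, iha, ihb, one_mul]
      | inv a _ iha => rw [inv_pow, iha, inv_one]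
    have hEnc : ¬ IsCyclic ↥E := by
      intro hc
      obtain ⟨g, hg⟩ := hc.exists_generator
      have hEeq : E = Subgroup.zpowers (g : ↥N ⧸ U.subgroupOf N) := by
        refine le_antisymm (fun x hx => ?_) (Subgroup.zpowers_le.2 g.2)
        obtain ⟨k, hk⟩ := hg ⟨x, hx⟩
        exact ⟨k, congrArg Subtype.val hk⟩
      have he : Subgroup.zpowers (f t₁) = E := by
        refine Subgroup.eq_of_le_of_card_ge (Subgroup.zpowers_le.2 (Subgroup.subset_closure (Or.inl rfl))) ?_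
        rw [Nat.card_zpowers, ho₁, hEeq, Nat.card_zpowers]
        exact Nat.le_of_dvd hp.out.pos (orderOf_dvd_of_pow_eq_one (hexp _ g.2))
      obtain ⟨k, hk⟩ := (he ▸ Subgroup.subset_closure (Or.inr rfl) : f t₂ ∈ Subgroup.zpowers (f t₁))
      have hk' : f (t₁ ^ k) = f t₂ := (map_zpow f t₁ k).trans hk
      have h3 : (t₁ ^ k)⁻¹ * t₂ ∈ U.subgroupOf N := QuotientGroup.eq.1 hk'
      have h4 : (t₂ : G) ∈ U := by
        refine hPI ⟨ht₂.1, ?_, ht₂.2⟩
        have := mul_mem (zpow_mem (show (t₁ : G) ∈ L₁ from ht₁.2) k) (h₁.1 h3)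
        simpa using this
      rw [show f t₂ = 1 from (QuotientGroup.eq_one_iff _).2 h4, orderOf_one] at ho₂
      exact hp.out.one_lt.ne ho₂
    have hES : E ≤ (((P : Subgroup G) ⊓ N).subgroupOf N).map f := by
      rw [hE, Subgroup.closure_le]
      rintro x (rfl | rfl)
      · exact ⟨t₁, ⟨ht₁.1, t₁.2⟩, rfl⟩
      · exact ⟨t₂, ⟨ht₂.1, t₂.2⟩, rfl⟩
    have hfix := Lib.Coprime.fixGen_eq (A := E) (K := Ib) hEnc
      (fun e _ => by
        haveI : Ib.Normal := Subgroup.Normal.map (normal_subgroupOf hIn) f (QuotientGroup.mk'_surjective _)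
        rw [Subgroup.normalizer_eq_top]; trivial)
      (by
        obtain ⟨n, hn⟩ := IsPGroup.iff_card.1
          (((isPGroup_subgroupOf (H := N) h.sylow.2.1).map f).to_le hES)
        rw [hn]; exact hcard.symm.pow_left n)
    have hIbW : Ib ≤ (W.subgroupOf N).map f := by
      rw [← hfix]
      refine iSup₂_le fun e he => ?_
      rintro x ⟨⟨y, hy, rfl⟩, hxe⟩
      refine ⟨y, ?_, rfl⟩
      set D := ((Subgroup.zpowers e).comap f).map N.subtype with hDdef
      have hker : f.ker ≤ (((P : Subgroup G) ⊓ N).subgroupOf N) := by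
        rw [hf, QuotientGroup.ker_mk']; exact fun u hu => h.lt_inf.le hu
      refine hT D (lt_of_le_of_ne (fun u hu => ⟨⟨u, hUN hu⟩, ?_, rfl⟩) fun eD => he.2 ?_) ?_
        ⟨y.2, mem_nz_of_cj_le ?_⟩
      · rw [SetLike.mem_coe, Subgroup.mem_comap,
          show f ⟨u, hUN hu⟩ = 1 from (QuotientGroup.eq_one_iff (⟨u, hUN hu⟩ : N)).2 hu]
        exact one_mem _
      · obtain ⟨z, rfl⟩ := QuotientGroup.mk'_surjective (U.subgroupOf N) e
        refine (QuotientGroup.eq_one_iff _).2 ?_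
        show (z : G) ∈ U
        rw [eD]; exact ⟨z, Subgroup.mem_zpowers (f z), rfl⟩
      · rintro _ ⟨z, hz, rfl⟩
        obtain ⟨s, hs, hse⟩ := Subgroup.zpowers_le.2 (hES he.1) hz
        have := mul_mem hs (hker (show f (s⁻¹ * z) = 1 by rw [map_mul, map_inv, hse, inv_mul_cancel]))
        rw [mul_inv_cancel_left] at this
        exact this
      · rintro _ ⟨_, ⟨z, hz, rfl⟩, rfl⟩
        refine ⟨y * z * y⁻¹, ?_, rfl⟩
        obtain ⟨k, hk⟩ := hz
        have hcy : Commute (f y) e := (Subgroup.mem_centralizer_singleton_iff.1 hxe)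
        rw [SetLike.mem_coe, Subgroup.mem_comap]
        rw [map_mul, map_mul, map_inv, ← hk, (hcy.zpow_right k).eq, mul_inv_cancel_right]
        exact ⟨k, rfl⟩
    intro x hx
    obtain ⟨w, hw, hwe⟩ := hIbW ⟨⟨x, hIN hx⟩, hx, rfl⟩
    have h1 : w⁻¹ * ⟨x, hIN hx⟩ ∈ U.subgroupOf N := QuotientGroup.eq.1 hwe
    have h2 : (w : G) * ((w⁻¹ * (⟨x, hIN hx⟩ : N) : N) : G) ∈ W :=
      mul_mem (Subgroup.mem_subgroupOf.1 hw) (h.inf_le_W hT (h.lt_inf.le (Subgroup.mem_subgroupOf.1 h1)))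
    simpa using h2
  have hSW := h.inf_le_W hT
  set J := T₂ ⊔ I with hJ
  have hT₂N : T₂ ≤ N := hT₂S.trans inf_le_right
  have hJN : J ≤ N := sup_le hT₂N hIN
  have hJsyl : IsSylowIn p T₂ J := by
    obtain ⟨Q, hQ, hle⟩ := exists_isSylowIn_ge (H := J) (P.2.to_le inf_le_left) le_sup_left
    have := (h.sylowInf h₂.2.1 h₂.2.2.1).eq_of_le hQ.2.1
      (hQ.1.trans (sup_le inf_le_right inf_le_right)) hle
    rw [this] at hQ
    exact hQ
  have hJW : J ≤ W := sup_le (hT₂S.trans hSW) hIW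
  have hL₁J : L₁ ≤ Subgroup.normalizer (J : Set G) := by
    refine le_nz_iff.2 fun l hl x hx => ?_
    suffices J ≤ J.comap (MulAut.conj l).toMonoidHom from this hx
    refine sup_le (fun t ht => ?_) fun i hi => Subgroup.mem_sup_right (conj_mem_of_nz (hIn (h₁.2.1 hl)) hi)
    have hI' : l * t * l⁻¹ * t⁻¹ ∈ I := by
      refine Subgroup.mem_inf.2 ⟨?_, mul_mem (conj_mem_of_nz (h₂.2.2.1 (h₁.2.1 hl)) ht.2) (inv_mem (show t ∈ L₂ from ht.2))⟩
      have := mul_mem hl (conj_mem_of_nz (h₁.2.2.1 (hT₂N ht)) (inv_mem (show l ∈ L₁ from hl)))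
      simpa [mul_assoc] using this
    have := mul_mem (Subgroup.mem_sup_right hI' : _ ∈ J) (Subgroup.mem_sup_left ht : t ∈ J)
    simpa using this
  have hL₁W : L₁ ≤ W := by
    intro l hl
    obtain ⟨j, hj, m, hm, rfl⟩ := hJsyl.frattini (H := N ⊓ Subgroup.normalizer (J : Set G))
      (le_inf hJN Subgroup.le_normalizer) inf_le_right ⟨h₁.2.1 hl, hL₁J hl⟩
    exact mul_mem (hJW hj) (hT _ (hTne L₂ h₂) hT₂S ⟨hm.1.1, hm.2⟩)
  exact h.le_W_of_normal hT h₁.2.1 h₁.2.2.1 (hTne L₁ h₁) hL₁W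

end Cfsg.Agent.Lib.StrongAG
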