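import Cfsg.Agent.Lib.StrongAG.Local

/-! The strong Alperin–Goldschmidt decomposition. -/

set_option autoImplicit false

namespace Cfsg.Agent.Lib.StrongAG

open Cfsg Cfsg.Agent.Lib.LocalFusion Cfsg.Agent.Lib.LocalChar

variable {G : Type*} [Group G] [Finite G] {p : ℕ} [hp : Fact p.Prime]

theorem decomp_local {P : Sylow p G} {U : Subgroup G} (h : Setup P U)
    (hup : ∀ (T : Subgroup G) (n : G), U < T → T ≤ (P : Subgroup G) →
      imgR n (T : Set G) ⊆ (P : Subgroup G) → Decomp P (T : Set G) n)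
    {x : G} (hx : x ∈ Subgroup.normalizer (U : Set G)) : Decomp P (U : Set G) x := by
  set N := Subgroup.normalizer (U : Set G) with hN
  have himg : ∀ g ∈ N, imgR g (U : Set G) = U := by
    intro g hg
    rw [imgR_eq_imgL, imgL_subgroup, map_conj_eq_of_mem_normalizer (inv_mem hg)]
  let M : Submonoid G :=
    { carrier := {g | g ∈ N ∧ Decomp P (U : Set G) g}
      one_mem' := ⟨one_mem _, Decomp.of_centralizer (one_mem _)⟩
      mul_mem' := fun {a b} ha hb => ⟨mul_mem ha.1 hb.1, ha.2.mul (by rw [himg a ha.1]; exact hb.2)⟩ }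
  let W : Subgroup G :=
    { M with
      inv_mem' := fun {a} ha => by
        have : a⁻¹ = a ^ (orderOf a - 1) := by
          refine inv_eq_of_mul_eq_one_right ?_
          rw [← pow_succ', Nat.sub_add_cancel (orderOf_pos a), pow_orderOf_eq_one]
        show a⁻¹ ∈ M
        rw [this]; exact pow_mem ha _ }
  have hC : Subgroup.centralizer (U : Set G) ≤ W := fun c hc =>
    ⟨Subgroup.centralizer_le_normalizer _ hc, Decomp.of_centralizer hc⟩
  have hT : ∀ T : Subgroup G, U < T → T ≤ (P : Subgroup G) ⊓ N →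
      N ⊓ Subgroup.normalizer (T : Set G) ≤ W := by
    intro T hlt hle n hn
    refine ⟨hn.1, (hup T n hlt (hle.trans inf_le_left) ?_).mono hlt.le⟩
    rw [imgR_eq_imgL]
    exact (imgL_subset_of_mem_normalizer (inv_mem hn.2) le_rfl).trans (hle.trans inf_le_left)
  suffices hNW : N ≤ W from (hNW hx).2
  by_cases hgen : IsGen (P : Subgroup G) U
  · exact hgen W hC hT
  obtain ⟨L, hL, hmin⟩ := h.exists_least hgen
  have hlt : U < (P : Subgroup G) ⊓ L := lt_of_le_of_ne (le_inf h.le hL.1) fun e => by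
    have := (h.sylowInf hL.2.1 hL.2.2.1).2.2
    rw [← e] at this
    exact this hL.2.2.2
  refine h.le_W_of_normal hT hL.2.1 hL.2.2.1 hlt ?_
  rw [← (h.sylowInf hL.2.1 hL.2.2.1).resOf_sup]
  refine sup_le (resOf_le_iff.2 fun z hz hzo => ?_)
    ((inf_le_inf_left _ hL.2.1).trans (h.inf_le_W hT))
  exact ⟨hL.2.1 hz, Decomp.of_good
    ⟨h.le, h.ne, h.fn, hgen, hzo, hL.2.1 hz, fun L' hL' => hmin L' hL' hz⟩ le_rfl⟩

theorem decomp_all (P : Sylow p G) : ∀ (D : Subgroup G) (g : G), D ≤ (P : Subgroup G) →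
    imgR g (D : Set G) ⊆ (P : Subgroup G) → Decomp P (D : Set G) g := by
  suffices H : ∀ (k : ℕ) (D : Subgroup G) (g : G), Nat.card ↥(P : Subgroup G) - Nat.card ↥D = k →
      D ≤ (P : Subgroup G) → imgR g (D : Set G) ⊆ (P : Subgroup G) → Decomp P (D : Set G) g from
    fun D g => H _ D g rfl
  intro k
  induction k using Nat.strong_induction_on with
  | _ k ih =>
  intro D g hk hD hg
  rw [imgR_eq_imgL, imgL_subgroup] at hg
  set E := D.map (MulAut.conj g⁻¹).toMonoidHom with hEdef
  have hE : E ≤ (P : Subgroup G) := hg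
  have hEcard : Nat.card ↥E = Nat.card ↥D := card_map_conj D _
  rcases eq_or_lt_of_le hD with hDP | hDP
  · subst hDP
    exact Decomp.of_normalizer _ (by
      simpa using inv_mem (mem_normalizer_of_map_conj_eq (Subgroup.eq_of_le_of_card_ge hE hEcard.ge)))
  have up : ∀ (T : Subgroup G) (n : G), Nat.card ↥D < Nat.card ↥T → T ≤ (P : Subgroup G) →
      imgR n (T : Set G) ⊆ (P : Subgroup G) → Decomp P (T : Set G) n := by
    intro T n hlt hT hn
    have := card_le_of_le hT
    exact ih _ (by omega) T n rfl hT hn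
  obtain ⟨U, hU, ⟨a₀, ha₀⟩, hfn⟩ := (isCovering_fullyNormalized P).2 D hD
  obtain ⟨a, ha, haN⟩ := exists_conj_normalizer_le P.2 ha₀ hfn
  have hE0 : E.map (MulAut.conj (a₀ * g)).toMonoidHom = U := by
    rw [hEdef, LocalFusion.map_conj_mul, show a₀ * g * g⁻¹ = a₀ by simp]; exact ha₀
  obtain ⟨b, hb, hbN⟩ := exists_conj_normalizer_le P.2 hE0 hfn
  have hUcard : Nat.card ↥U = Nat.card ↥D := by rw [← ha, card_map_conj]
  have hset : Setup P U := ⟨hU.1, fun e => by
    have := Subgroup.eq_of_le_of_card_ge hD (by rw [← hUcard, e])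
    exact hDP.ne this, hfn⟩
  have hlt : ∀ X : Subgroup G, X ≤ (P : Subgroup G) → Nat.card ↥X = Nat.card ↥D →
      Nat.card ↥D < Nat.card ↥((P : Subgroup G) ⊓ Subgroup.normalizer (X : Set G)) := by
    intro X hX hXc
    have hXlt : X < (P : Subgroup G) := lt_of_le_of_ne hX fun e =>
      hDP.ne (Subgroup.eq_of_le_of_card_ge hD (by rw [← hXc, e]))
    rw [← hXc]
    exact (Set.toFinite _).card_lt_card (SetLike.coe_ssubset_coe.2 (lt_inf_normalizer P.2 hXlt))
  have c1 : Decomp P (D : Set G) a⁻¹ := by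
    refine (up _ a⁻¹ (hlt D hD rfl) inf_le_left ?_).mono (le_inf_normalizer hD)
    rw [imgR_eq_imgL, inv_inv, imgL_subgroup]
    exact haN.trans inf_le_left
  have hm : a * g * b⁻¹ ∈ Subgroup.normalizer (U : Set G) := by
    apply mem_normalizer_of_map_conj_eq
    conv_lhs => rw [← hb, hEdef, LocalFusion.map_conj_mul, LocalFusion.map_conj_mul,
      show a * g * b⁻¹ * b * g⁻¹ = a by simp [mul_assoc]]
    exact ha
  have c2 : Decomp P (U : Set G) b := by
    have hc : Nat.card ↥D < Nat.card ↥(((P : Subgroup G) ⊓ Subgroup.normalizer (E : Set G)).map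
        (MulAut.conj b).toMonoidHom) := by
      rw [card_map_conj]; exact hlt E hE hEcard
    refine (up _ b hc (hbN.trans inf_le_left) ?_).mono ?_
    · rw [imgR_eq_imgL, imgL_subgroup, LocalFusion.map_conj_mul, inv_mul_cancel, map_conj_one]
      exact inf_le_left
    · rw [← hb]
      exact Subgroup.map_mono (le_inf_normalizer hE)
  have c3 : Decomp P (imgR a⁻¹ (D : Set G)) (a * g * b⁻¹ * b) := by
    rw [imgR_eq_imgL, inv_inv, imgL_subgroup, ha]
    refine (decomp_local hset (fun T n hlt' hT hn => up T n ?_ hT hn) hm).mul (c2.mono ?_)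
    · rw [← hUcard]; exact (Set.toFinite _).card_lt_card (SetLike.coe_ssubset_coe.2 hlt')
    · rw [imgR_eq_imgL]
      exact imgL_subset_of_mem_normalizer (inv_mem hm) le_rfl
  simpa [mul_assoc] using c1.mul c3

end Cfsg.Agent.Lib.StrongAG
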